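import Mathlib
import Cfsg.Agent.CTR.Loc
import Cfsg.Agent.Phan.Std0

/-!
Standard triples in quotients of `SU₄(3)`.
-/

set_option autoImplicit false
set_option backward.isDefEq.respectTransparency false

namespace Cfsg.Agent.Phan

open Matrix Herm Subgroup
open scoped MatrixGroups

variable {F : Type*} [Field F] {σ : F →+* F} {G : Type*} [Group G]

theorem scalar_two {X Y M : Matrix (Fin 2) (Fin 2) F} (h1 : M * X = X * M) (h2 : M * Y = Y * M)
    (h : X * Y ≠ Y * X) : M = M 0 0 • 1 := by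
  have a := fun i j => congrFun (congrFun h1 i) j
  have b := fun i j => congrFun (congrFun h2 i) j
  simp only [mul_apply, Fin.sum_univ_two] at a b
  have key : ∀ c, (∀ i j, c * ((X * Y) i j - (Y * X) i j) = 0) → c = 0 := fun c hc =>
    by_contra fun h0 => h (Matrix.ext fun i j => sub_eq_zero.1 ((mul_eq_zero.1 (hc i j)).resolve_left h0))
  ext i j; fin_cases i <;> fin_cases j <;> simp
  · refine key _ fun i j => ?_
    fin_cases i <;> fin_cases j <;> simp only [mul_apply, Fin.sum_univ_two] <;> simp only [Fin.zero_eta, Fin.mk_one]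
    · linear_combination X 0 1 * b 0 0 - Y 0 1 * a 0 0
    · linear_combination X 0 1 * b 0 1 - Y 0 1 * a 0 1
    · linear_combination -X 1 0 * b 0 1 - (X 0 0 - X 1 1) * b 0 0 - Y 0 1 * a 1 0
    · linear_combination -X 0 1 * b 0 0 + Y 0 1 * a 0 0
  · refine key _ fun i j => ?_
    fin_cases i <;> fin_cases j <;> simp only [mul_apply, Fin.sum_univ_two] <;> simp only [Fin.zero_eta, Fin.mk_one]
    · linear_combination -Y 1 0 * a 0 0 + X 1 0 * b 0 0
    · linear_combination -X 0 1 * b 1 0 - (X 0 0 - X 1 1) * b 0 0 - Y 1 0 * a 0 1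
    · linear_combination X 1 0 * b 1 0 - Y 1 0 * a 1 0
    · linear_combination Y 1 0 * a 0 0 - X 1 0 * b 0 0
  · refine sub_eq_zero.1 (key _ fun i j => ?_)
    fin_cases i <;> fin_cases j <;> simp only [mul_apply, Fin.sum_univ_two] <;> simp only [Fin.zero_eta, Fin.mk_one]
    · linear_combination -Y 1 0 * a 0 1 - Y 0 1 * a 1 0 - (X 0 0 - X 1 1) * b 0 0
    · linear_combination (X 1 1 - X 0 0) * b 0 1 - (Y 1 1 - Y 0 0) * a 0 1
    · linear_combination (Y 0 0 - Y 1 1) * a 1 0 - (X 0 0 - X 1 1) * b 1 0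
    · linear_combination Y 1 0 * a 0 1 + Y 0 1 * a 1 0 + (X 0 0 - X 1 1) * b 0 0

variable (σ) in
/-- `diag(-1, -1, 1, 1)` -/
def zz : SU σ (Fin 4) := ⟨⟨diagonal ![-1, -1, 1, 1], by simp [Fin.prod_univ_four]⟩, by
  ext i j; fin_cases i <;> fin_cases j <;> simp [ct_apply, mul_apply, Fin.sum_univ_four]⟩

/-- upper block -/
def up (g : SU σ (Fin 4)) : Matrix (Fin 2) (Fin 2) F := !![g.1.1 0 0, g.1.1 0 1; g.1.1 1 0, g.1.1 1 1]

/-- lower block -/
def dn (g : SU σ (Fin 4)) : Matrix (Fin 2) (Fin 2) F := !![g.1.1 2 2, g.1.1 2 3; g.1.1 3 2, g.1.1 3 3]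

theorem cz (h2 : (2 : F) ≠ 0) {g : SU σ (Fin 4)} (h : zz σ * g = g * zz σ) :
    g.1.1 0 2 = 0 ∧ g.1.1 0 3 = 0 ∧ g.1.1 1 2 = 0 ∧ g.1.1 1 3 = 0 ∧
      g.1.1 2 0 = 0 ∧ g.1.1 2 1 = 0 ∧ g.1.1 3 0 = 0 ∧ g.1.1 3 1 = 0 := by
  have e := fun i j => congrArg (fun y : SU σ (Fin 4) => y.1.1 i j) h
  simp only [SU.mul_val, zz, diagonal_mul, mul_diagonal] at e
  refine ⟨?_, ?_, ?_, ?_, ?_, ?_, ?_, ?_⟩ <;> refine mul_left_cancel₀ h2 ?_
  · simpa [two_mul, neg_eq_iff_add_eq_zero] using e 0 2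
  · simpa [two_mul, neg_eq_iff_add_eq_zero] using e 0 3
  · simpa [two_mul, neg_eq_iff_add_eq_zero] using e 1 2
  · simpa [two_mul, neg_eq_iff_add_eq_zero] using e 1 3
  · simpa [two_mul, eq_neg_iff_add_eq_zero] using e 2 0
  · simpa [two_mul, eq_neg_iff_add_eq_zero] using e 2 1
  · simpa [two_mul, eq_neg_iff_add_eq_zero] using e 3 0
  · simpa [two_mul, eq_neg_iff_add_eq_zero] using e 3 1

section
variable (h2 : (2 : F) ≠ 0) {g : SU σ (Fin 4)} (h : zz σ * g = g * zz σ)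
include h2 h

theorem up_mul (k : SU σ (Fin 4)) : up (g * k) = up g * up k := by
  have := cz h2 h
  ext i j; fin_cases i <;> fin_cases j <;> simp [up, SU.mul_val, mul_apply, Fin.sum_univ_four, this]

theorem dn_mul (k : SU σ (Fin 4)) : dn (g * k) = dn g * dn k := by
  have := cz h2 h
  ext i j; fin_cases i <;> fin_cases j <;> simp [dn, SU.mul_val, mul_apply, Fin.sum_univ_four, this]

theorem mem_of_up (h1 : up g = 1) : g ∈ Blk σ {2, 3} := mem_Blk fun k hk i => by
  have := cz h2 h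
  have e := fun i j => congrFun (congrFun h1 i) j
  have a1 := e 0 0
  have a2 := e 0 1
  have a3 := e 1 0
  have a4 := e 1 1
  simp [up] at a1 a2 a3 a4
  fin_cases k <;> fin_cases i <;> simp [*] at hk ⊢

theorem mem_of_dn (h1 : dn g = 1) : g ∈ Blk σ {0, 1} := mem_Blk fun k hk i => by
  have := cz h2 h
  have e := fun i j => congrFun (congrFun h1 i) j
  have a1 := e 0 0
  have a2 := e 0 1
  have a3 := e 1 0
  have a4 := e 1 1
  simp [dn] at a1 a2 a3 a4
  fin_cases k <;> fin_cases i <;> simp [*] at hk ⊢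

theorem supp_zz {T : Set (Fin 4)} (hT : T = {0, 1} ∨ T = {2, 3}) {v : Fin 4 → F}
    (hv : ∀ i ∉ T, v i = 0) : ∀ i ∉ T, (g • v) i = 0 := fun i hi => by
  have := cz h2 h
  rcases hT with rfl | rfl <;> fin_cases i <;>
    simp [SU.smul_def, mulVec, dotProduct, Fin.sum_univ_four, this, hv] at hi ⊢

end

theorem up_one : up (1 : SU σ (Fin 4)) = 1 := by
  ext i j; fin_cases i <;> fin_cases j <;> rfl

theorem dn_one : dn (1 : SU σ (Fin 4)) = 1 := by
  ext i j; fin_cases i <;> fin_cases j <;> rfl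

theorem dn_inj {g k : SU σ (Fin 4)} (hg : g ∈ Blk σ {2, 3}) (hk : k ∈ Blk σ {2, 3})
    (h : dn g = dn k) : g = k := SU.ext (by
  have e := fun i j => congrFun (congrFun h i) j
  ext i j
  by_cases hi : i ∈ ({2, 3} : Set (Fin 4))
  · by_cases hj : j ∈ ({2, 3} : Set (Fin 4))
    · rcases hi with rfl | rfl <;> rcases hj with rfl | rfl
      exacts [e 0 0, e 0 1, e 1 0, e 1 1]
    · rw [Blk.col hg hj, Blk.col hk hj]
  · rw [Blk.row hg hi, Blk.row hk hi])

theorem cube_scalar [CharP F 3] {M : Matrix (Fin 2) (Fin 2) F} (h : M = M 0 0 • 1)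
    (h' : M * (M * M) = 1) : M = 1 := by
  generalize M 0 0 = r at h
  subst h
  have : r ^ 3 = 1 := by simpa [pow_three] using congrFun (congrFun h' 0) 0
  rw [show r = 1 from frobenius_inj F 3 (by simpa [frobenius_def] using this), one_smul]

theorem m1 (σ : F →+* F) : σ (-1) * -1 = 1 := by simp

theorem braid_sq {x y : G} (hx : x ^ 3 = 1) (h : x * y * x = y * x * y) :
    (x * y⁻¹) ^ 2 * (x * y⁻¹) ^ 2 = 1 := by
  have h0 : x * x * x = 1 := by rw [← hx, pow_three']
  have h1 : y⁻¹ * x⁻¹ * y⁻¹ = x⁻¹ * y⁻¹ * x⁻¹ := by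
    simpa [mul_assoc] using congrArg (·⁻¹) h.symm
  have h2 : x * x = x⁻¹ := eq_inv_of_mul_eq_one_left h0
  have k1 : x * y⁻¹ * (x⁻¹ * y⁻¹ * x⁻¹) = y⁻¹ * x := by
    calc _ = x * (y⁻¹ * x⁻¹ * y⁻¹) * x⁻¹ := by group
      _ = y⁻¹ * (x * x)⁻¹ := by rw [h1]; group
      _ = _ := by rw [h2, inv_inv]
  have c1 : x * (x * y⁻¹) * x⁻¹ = x⁻¹ * y⁻¹ * x⁻¹ := by rw [← mul_assoc, h2]
  have c2 : x * (x⁻¹ * y⁻¹ * x⁻¹) * x⁻¹ = y⁻¹ * x := by
    calc _ = y⁻¹ * (x * x)⁻¹ := by group
      _ = _ := by rw [h2, inv_inv]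
  have c3 : x * (y⁻¹ * x) * x⁻¹ = x * y⁻¹ := by group
  generalize x * y⁻¹ = i at *
  generalize x⁻¹ * y⁻¹ * x⁻¹ = j at *
  generalize y⁻¹ * x = k at *
  have k2 : j * k = i := by rw [← c3, ← k1, ← conj_mul, c1, c2, k1]
  have k3 : k * i = j := by rw [← c1, ← k2, ← conj_mul, c2, c3, k2]
  have k4 : i * j * i = j := by rw [k1, k3]
  have k5 : j * i * j = i := by rw [mul_assoc, k1, k2]
  have k6 : i * i = j * j := by
    calc _ = i * (j * i * j) := by rw [k5]
      _ = _ := by rw [← mul_assoc, ← mul_assoc, k4]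
  have k7 : j * i * j⁻¹ = i⁻¹ := by
    calc _ = i⁻¹ * (i * j * i) * j⁻¹ := by group
      _ = _ := by rw [k4]; group
  have k8 : j * (i * i) * j⁻¹ = i * i := by rw [k6]; group
  rw [← conj_mul, k7] at k8
  rw [sq]
  nth_rewrite 1 [← k8]
  group

theorem sl_three (h3 : (3 : F) = 0) (h4 : ∀ c : F, c = 0 ∨ c = 1 ∨ c = -1) :
    ∃ x y : SL(2, F), x ^ 3 = 1 ∧ y ^ 3 = 1 ∧ x * y * x = y * x * y ∧ (x * y⁻¹) ^ 2 = -1 ∧
      x * y ≠ y * x ∧ ∀ K : Subgroup SL(2, F), x ∈ K → y ∈ K → K = ⊤ := by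
  refine ⟨SpecialLinearGroup.transvection Fin.zero_ne_one 1,
    SpecialLinearGroup.transvection Fin.zero_ne_one.symm (-1), ?_, ?_, ?_, ?_, fun h => ?_,
    fun K h1 h2 => ?_⟩
  · simp [tv_pow, h3]
  · simp [tv_pow, h3]
  · ext i j; fin_cases i <;> fin_cases j <;>
      simp [SpecialLinearGroup.transvection_coe, mul_apply, one_apply]
  · rw [SpecialLinearGroup.transvection_inv]
    ext i j; fin_cases i <;> fin_cases j <;>
      simp [sq, SpecialLinearGroup.transvection_coe, mul_apply, one_apply]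
    · linear_combination 2 * h3
    · linear_combination h3
    · linear_combination h3
    · linear_combination h3
  · simpa [SpecialLinearGroup.transvection_coe, mul_apply] using
      congrArg (fun A : SL(2, F) => A.1 0 0) h
  · refine Classical.SLBasic.eq_top_of_transvection_mem _ fun i j h c => ?_
    have h5 : SpecialLinearGroup.transvection h 1 ∈ K := by
      fin_cases i <;> fin_cases j
      · exact absurd rfl h
      · exact h1
      · simpa [SpecialLinearGroup.transvection_inv] using inv_mem h2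
      · exact absurd rfl h
    rcases h4 c with rfl | rfl | rfl
    · simp
    · exact h5
    · simpa [SpecialLinearGroup.transvection_inv] using inv_mem h5

variable [Finite F] (hσ : Inv σ)
include hσ

theorem char_three (hF : Nat.card F = 3 ^ 2) : CharP F 3 :=
  have := Fintype.ofFinite F
  charP_of_card_eq_prime_pow (Nat.card_eq_fintype_card.symm.trans hF)

theorem gen_three (hF : Nat.card F = 3 ^ 2) : ∃ x y : SU σ (Fin 2), x ^ 3 = 1 ∧ y ^ 3 = 1 ∧
    x * y * x = y * x * y ∧ (x * y⁻¹) ^ 2 = dg (m1 σ) ∧ x * y ≠ y * x ∧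
    ∀ K : Subgroup (SU σ (Fin 2)), x ∈ K → y ∈ K → K = ⊤ := by
  have := char_three hσ hF
  obtain ⟨P, E, hE⟩ := exists_SL2 hσ
  obtain ⟨x, y, h1, h2, h3, h4, h5, h6⟩ := sl_three (CharP.cast_eq_zero (fixF σ) 3) fun c => by
    have := pow_card_eq c
    rw [hσ.card_fixF hF] at this
    rw [← mul_self_eq_one_iff, or_iff_not_imp_left]
    exact fun h => mul_left_cancel₀ h (by linear_combination this)
  refine ⟨E x, E y, by rw [← map_pow, h1, map_one], by rw [← map_pow, h2, map_one],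
    by simp only [← map_mul, h3], ?_, fun h => h5 (E.injective (by simpa using h)),
    fun K k1 k2 => eq_top_iff.2 fun s _ => ?_⟩
  · rw [← map_inv, ← map_mul, ← map_pow, h4]
    refine SU.ext (P.isUnit.mul_right_cancel ((hE _).trans ?_))
    ext i j; fin_cases i <;> fin_cases j <;> simp [dg, mul_apply, one_apply]
  · obtain ⟨s, rfl⟩ := E.surjective s
    exact (h6 (K.comap E.toMonoidHom) k1 k2).ge (mem_top s)

theorem invol_fix {ι : Type*} [Fintype ι] [DecidableEq ι] (h2 : (2 : F) ≠ 0) {z : SU σ ι}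
    (hz : z * z = 1) {T : Set ι}
    (hT : ∀ v : ι → F, (∀ i ∉ T, v i = 0) → ∀ i ∉ T, (z • v) i = 0)
    (h : ¬ ∀ k ∈ T, z • (Pi.single k 1 : ι → F) = -Pi.single k 1) :
    ∃ v : ι → F, (∀ i ∉ T, v i = 0) ∧ stdB σ ι v v = 1 ∧ z • v = v := by
  classical
  let D : Matrix ι ι F := diagonal fun i => if i ∈ T then 1 else 0
  have d1 : ∀ x, ∀ i ∉ T, (D *ᵥ x) i = 0 := fun x i hi => by simp [D, mulVec_diagonal, hi]
  have d2 : ∀ x : ι → F, (∀ i ∉ T, x i = 0) → D *ᵥ x = x := fun x hx => funext fun i => by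
    by_cases hi : i ∈ T <;> simp [D, mulVec_diagonal, hi, hx]
  have d3 : ∀ x, ((1 + z.1.1) * D) *ᵥ x = D *ᵥ x + z • D *ᵥ x := fun x => by
    rw [← mulVec_mulVec, add_mulVec, one_mulVec]; rfl
  have d4 : ∀ x, ∀ i ∉ T, (((1 + z.1.1) * D) *ᵥ x) i = 0 := fun x i hi => by
    rw [d3, Pi.add_apply, d1 x i hi, hT _ (d1 x) i hi, add_zero]
  have d5 : ∀ x, z • (((1 + z.1.1) * D) *ᵥ x) = ((1 + z.1.1) * D) *ᵥ x := fun x => by
    rw [d3, smul_add, ← mul_smul, hz, one_smul, add_comm]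
  have d6 : D * ((1 + z.1.1) * D) = (1 + z.1.1) * D := toLin'.injective (LinearMap.ext fun x => by
    rw [toLin'_apply, toLin'_apply, ← mulVec_mulVec, d2 _ (d4 x)])
  have d7 : ct σ D = D := by simp [D, ct_apply, diagonal_map, apply_ite]
  have d8 : ct σ z.1.1 = z.1.1 := by rw [← SU.inv_val, inv_eq_of_mul_eq_one_right hz]
  have d9 : D * (1 + z.1.1) * D = D * (1 + z.1.1) := by
    simpa only [ct_mul, d7, map_add, ct_one, d8] using congrArg (ct σ) d6
  obtain ⟨x, a, ha⟩ := exists_proj hσ (M := (1 + z.1.1) * D)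
    (by rw [ct_mul, d7, map_add, ct_one, d8, ← d9, Matrix.mul_assoc, d6]) h2
    (by
      rw [Matrix.mul_assoc, d6, ← Matrix.mul_assoc, ← smul_mul_assoc, add_mul, mul_add, mul_add,
        ← SU.mul_val, hz]
      congr 1
      simp [two_smul]; abel)
    fun h0 => h fun k hk => by
      have := d3 (Pi.single k 1)
      rw [h0, zero_mulVec, d2 _ fun i hi => Pi.single_eq_of_ne (by rintro rfl; exact hi hk) _] at this
      exact eq_neg_of_add_eq_zero_right this.symm
  exact ⟨_, fun i hi => by rw [Pi.smul_apply, d4 x i hi, smul_zero], ha, by rw [SU.smul_c, d5]⟩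

theorem conj_zz (h2 : (2 : F) ≠ 0) {z : SU σ (Fin 4)} (hz : z * z = 1)
    (h : ¬ ∀ g, z * g = g * z) : ∃ k, k * z * k⁻¹ = zz σ := by
  obtain ⟨v, -, h1, h3⟩ := invol_fix hσ h2 hz (T := Set.univ) (by simp) fun H => h fun g => by
    have : z.1.1 = -1 := by
      ext i j; simpa [SU.smul_def, one_apply, Pi.single_apply] using congrFun (H j trivial) i
    exact SU.ext (by simp [SU.mul_val, this])
  obtain ⟨k, hk⟩ := SU_trans hσ (u := v) (v := Pi.single 3 1) (by simp [h1]) (by rw [h1, b_ee])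
  obtain ⟨y, hy⟩ := (range_emb Fin.castSuccEmb).ge (x := k * z * k⁻¹) (by
    rw [rgc]; exact mem_stab.2 (by
      change _ • Pi.single 3 1 = Pi.single 3 1
      rw [← hk, mul_smul, inv_smul_smul, mul_smul, h3]))
  have h4 : y * y = 1 := emb_inj _ (by rw [map_mul, hy, conj_mul, hz]; simp)
  obtain ⟨w, -, h5, h6⟩ := invol_fix hσ h2 h4 (T := Set.univ) (by simp) fun H => by
    have : y.1.1 = -1 := by
      ext i j; simpa [SU.smul_def, one_apply, Pi.single_apply] using congrFun (H j trivial) i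
    have h7 := y.1.2
    rw [this, det_neg] at h7
    simp at h7
    exact h2 (by linear_combination -h7)
  obtain ⟨l, hl⟩ := SU_trans hσ (u := w) (v := Pi.single 2 1) (by simp [h5]) (by rw [h5, b_ee])
  obtain ⟨m, hm⟩ := mem_j1 (g := l * y * l⁻¹) (by rw [← hl, mul_smul, inv_smul_smul, mul_smul, h6])
  have h7 : m * m = 1 := emb_inj _ (show j1 σ _ = j1 σ _ by rw [map_mul, hm, conj_mul, h4]; simp)
  have h8 : m ≠ 1 := by
    rintro rfl
    rw [map_one, eq_comm, conj_eq_one_iff] at hm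
    rw [hm, map_one, eq_comm, conj_eq_one_iff] at hy
    simp [hy] at h
  have h9 : m.1.1 = -1 := by
    have a := congrArg (fun s : SU σ (Fin 2) => s.1.1) (inv_eq_of_mul_eq_one_right h7)
    change adjugate m.1.1 = _ at a
    rw [adjugate_fin_two] at a
    have a1 : m.1.1 0 1 = 0 := mul_left_cancel₀ h2 (by
      have := congrFun (congrFun a 0) 1; simp at this; linear_combination -this)
    have a2 : m.1.1 1 0 = 0 := mul_left_cancel₀ h2 (by
      have := congrFun (congrFun a 1) 0; simp at this; linear_combination -this)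
    have a3 : m.1.1 1 1 = m.1.1 0 0 := congrFun (congrFun a 0) 0
    have a4 := SU.det2 m
    rw [a1, a3, zero_mul, sub_zero, mul_self_eq_one_iff] at a4
    rcases a4 with a4 | a4
    · exact absurd (SU.ext (by ext i j; fin_cases i <;> fin_cases j <;> simp [*])) h8
    · ext i j; fin_cases i <;> fin_cases j <;> simp [*]
  refine ⟨emb σ Fin.castSuccEmb l * k, ?_⟩
  rw [show ∀ a : SU σ (Fin 4), a * k * z * (a * k)⁻¹ = a * (k * z * k⁻¹) * a⁻¹ from
    fun a => by group, ← hy, ← map_inv, ← map_mul, ← map_mul, ← hm]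
  refine SU.ext (embM_ext (fun i j => ?_) fun i hi j => ?_)
  · rw [j1_val, h9]; fin_cases i <;> fin_cases j <;> simp [zz]
  · rw [rgc] at hi
    rw [not_not.1 hi, show Fin.last 3 = 3 from rfl]; fin_cases j <;> simp [zz, one_apply]

end Cfsg.Agent.Phan
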