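import Mathlib
import Cfsg.Agent.Phan.Std3

/-!
Standard triples in quotients of `SU₄(3)`: the main argument.
-/

set_option autoImplicit false
set_option backward.isDefEq.respectTransparency false

namespace Cfsg.Agent.Phan

open Matrix Herm Subgroup

variable {F : Type*} [Field F] {σ : F →+* F} {G : Type*} [Group G] {ι : Type*} [Fintype ι]
  [DecidableEq ι]

theorem ScK.cent {π : SU σ ι →* G} (h : ScK π) {a b : SU σ ι} (e : π a = π b) :
    ∃ r : F, a.1.1 = r • b.1.1 := by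
  obtain ⟨r, hr⟩ := h (a * b⁻¹) (by simp [e])
  exact ⟨r, by rw [← inv_mul_cancel_right a b, SU.mul_val, hr, smul_mul_assoc, Matrix.one_mul]⟩

theorem ScK.blk {π : SU σ ι →* G} (h : ScK π) {a b : SU σ ι} (e : π a = π b) {T : Set ι} {k : ι}
    (hk : k ∉ T) (ha : a ∈ Blk σ T) (hb : b ∈ Blk σ T) : a = b := by
  obtain ⟨r, hr⟩ := h.cent e
  have := congrFun (congrFun hr k) k
  rw [Matrix.smul_apply, Blk.col ha hk, Blk.col hb hk, one_apply_eq, smul_eq_mul, mul_one] at this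
  exact SU.ext (by rw [hr, ← this, one_smul])

theorem ScK.pow {π : SU σ ι →* G} (h : ScK π) (y : SU σ ι) (hy : π y = 1) :
    y ^ Fintype.card ι = 1 := by
  obtain ⟨r, hr⟩ := h y hy
  have := y.1.2
  rw [hr, det_smul, det_one, mul_one] at this
  refine SU.ext ?_
  change y.1.1 ^ _ = 1
  rw [hr, smul_pow, this, one_pow, one_smul]

theorem ScK.uniq [CharP F 3] {π : SU σ (Fin 4) →* G} (h : ScK π) {a b : SU σ (Fin 4)}
    (e : π a = π b) (ha : a ^ 3 = 1) (hb : b ^ 3 = 1) : a = b := by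
  obtain ⟨r, hr⟩ := h.cent e
  have h1 : a.1.1 ^ 3 = 1 := congrArg (·.1.1) ha
  have h2 : b.1.1 ^ 3 = 1 := congrArg (·.1.1) hb
  rw [hr, smul_pow, h2] at h1
  have : r ^ 3 = 1 := by simpa using congrFun (congrFun h1 0) 0
  exact SU.ext (by
    rw [hr, show r = 1 from frobenius_inj F 3 (by simpa [frobenius_def] using this), one_smul])

theorem ScK.comm [CharP F 3] {π : SU σ (Fin 4) →* G} (h : ScK π) {a z : SU σ (Fin 4)}
    (e : π z * π a = π a * π z) (ha : a ^ 3 = 1) : z * a = a * z :=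
  mul_inv_eq_iff_eq_mul.1 (h.uniq (by simp [e]) (by rw [conj_pow, ha]; simp) ha)

theorem comm_of_neg {T : Set ι} {z b : SU σ ι}
    (hz : ∀ k ∈ T, z • (Pi.single k 1 : ι → F) = -Pi.single k 1) (hb : b ∈ Blk σ T) :
    z * b = b * z := SU.ext' fun k => by
  have h1 : ∀ v : ι → F, (∀ i ∉ T, v i = 0) → z • v = -v := fun v hv => by
    ext i
    rw [SU.smul_def, ← one_mulVec v, mulVec_mulVec, Matrix.mul_one, ← neg_mulVec]
    refine Finset.sum_congr rfl fun k _ => ?_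
    by_cases hk : k ∈ T
    · have : z.1.1 i k = (-1 : Matrix ι ι F) i k := by
        simpa [SU.smul_def, one_apply, Pi.single_apply] using congrFun (hz k hk) i
      simp only [this]
    · simp [hv k hk]
  rw [mul_smul, mul_smul]
  by_cases hk : k ∈ T
  · rw [hz k hk, smul_neg, h1 _ fun i hi => ?_]
    rw [Blk.apply hb _ hi, Pi.single_eq_of_ne (by rintro rfl; exact hi hk)]
  · rw [hb k hk, Blk.fix hb fun i hi => ?_]
    have := SU.b_smul z (Pi.single i 1) (Pi.single k 1)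
    rw [hz i hi] at this
    simpa [stdB_apply, Pi.single_apply, show k ≠ i by rintro rfl; exact hk hi] using this

theorem zz_fix (h2 : (2 : F) ≠ 0) {w : Fin 4 → F} (h : zz σ • w = w) :
    ∀ i ∈ ({0, 1} : Set (Fin 4)), w i = 0 := by
  rintro i (rfl | rfl) <;> refine mul_left_cancel₀ h2 ?_
  · simpa [SU.smul_def, zz, mulVec_diagonal, two_mul, neg_eq_iff_add_eq_zero] using congrFun h 0
  · simpa [SU.smul_def, zz, mulVec_diagonal, two_mul, neg_eq_iff_add_eq_zero] using congrFun h 1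

theorem zz_sq : zz σ * zz σ = 1 := SU.ext (by
  ext i j; fin_cases i <;> fin_cases j <;> simp [SU.mul_val, zz, mul_apply, Fin.sum_univ_four])

theorem zz_mem : zz σ ∈ Blk σ {0, 1} := mem_Blk fun k hk i => by
  fin_cases k <;> fin_cases i <;> simp [zz] at hk ⊢

theorem m1_comm (s : SU σ (Fin 2)) : dg (m1 σ) * s = s * dg (m1 σ) := SU.ext (by
  ext i j; fin_cases i <;> fin_cases j <;> simp [SU.mul_val, dg, mul_apply])

theorem m1_ne1 (h2 : (2 : F) ≠ 0) :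
    j2 σ (dg (m1 σ)) * j1 σ (wy σ) ≠ j1 σ (wy σ) * j2 σ (dg (m1 σ)) := fun h => h2 (by
  have := congrArg (fun s : SU σ (Fin 3) => s.1.1 0 1) h
  simp [SU.mul_val, j1_val, j2_val, dg, wy, mul_apply, Fin.sum_univ_three] at this
  linear_combination this)

theorem m1_ne2 (h2 : (2 : F) ≠ 0) :
    j1 σ (dg (m1 σ)) * j2 σ (wy σ) ≠ j2 σ (wy σ) * j1 σ (dg (m1 σ)) := fun h => h2 (by
  have := congrArg (fun s : SU σ (Fin 3) => s.1.1 1 2) h
  simp [SU.mul_val, j1_val, j2_val, dg, wy, mul_apply, Fin.sum_univ_three] at this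
  linear_combination -this)

variable [Finite F] (hσ : Inv σ)
include hσ

theorem std3_aux (hF : Nat.card F = 3 ^ 2) {π : SU σ (Fin 4) →* G} (hπ : ScK π)
    {θ θ' : SU σ (Fin 3) →* G} {A B C V W : Subgroup G} (h : StdV θ A B V) (h' : StdV θ' B C W)
    (e : ∀ s, θ' (j1 σ s) = θ (j2 σ s)) (hc : ∀ x ∈ A, ∀ y ∈ C, x * y = y * x)
    (hV : V ≤ π.range) (hW : W ≤ π.range) {x y : SU σ (Fin 2)} (hx : x ^ 3 = 1) (hy : y ^ 3 = 1)
    (h4 : (x * y⁻¹) ^ 2 = dg (m1 σ)) (h5 : x * y ≠ y * x)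
    (h6 : ∀ K : Subgroup (SU σ (Fin 2)), x ∈ K → y ∈ K → K = ⊤) {x0 y0 : SU σ (Fin 4)}
    (a1 : π x0 = θ (j1 σ x)) (a2 : x0 ^ 3 = 1) (a3 : π y0 = θ (j1 σ y)) (a4 : y0 ^ 3 = 1)
    (a5 : (x0 * y0⁻¹) ^ 2 = zz σ) : ∃ χ : SU σ (Fin 4) →* G,
      StdV (χ.comp (emb σ Fin.castSuccEmb)) A B V ∧
        StdV (χ.comp (emb σ (Fin.succEmb 3))) B C W := by
  have := char_three hσ hF
  have h3 : (3 : F) = 0 := CharP.cast_eq_zero F 3
  have h2 : (2 : F) ≠ 0 := fun h => one_ne_zero (by linear_combination h3 - h : (1 : F) = 0)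
  have z1 : π (zz σ) = θ (j1 σ (dg (m1 σ))) := by simp [← a5, ← h4, a1, a3]
  have mA : ∀ s, θ (j1 σ s) ∈ A := fun s => h.left.le ⟨s, rfl⟩
  have mC : ∀ s, θ' (j2 σ s) ∈ C := fun s => h'.right.le ⟨s, rfl⟩
  have zA : ∀ a, π a ∈ A → a ^ 3 = 1 → zz σ * a = a * zz σ := fun a b1 b2 => hπ.comm (by
    obtain ⟨s, hs⟩ := h.left.ge b1
    rw [z1, ← hs, MonoidHom.comp_apply, ← map_mul, ← map_mul, ← map_mul, ← map_mul, m1_comm]) b2
  have zC : ∀ a, π a ∈ C → a ^ 3 = 1 → zz σ * a = a * zz σ := fun a b1 b2 =>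
    hπ.comm (hc _ (z1 ▸ mA _) _ b1) b2
  have c1 := zA _ (a1 ▸ mA _) a2
  have c2 := zA _ (a3 ▸ mA _) a4
  have nc : up x0 * up y0 ≠ up y0 * up x0 := fun H => by
    have b1 : up (x0 * y0⁻¹) * up y0 = up x0 := by
      rw [← up_mul h2 (Commute.mul_right c1 (Commute.inv_right c2)), inv_mul_cancel_right]
    have b2 : up y0 * up y0⁻¹ = 1 := by rw [← up_mul h2 c2, mul_inv_cancel, up_one]
    have b3 : up x0 ^ 3 = 1 := by
      rw [pow_three, ← up_mul h2 c1, ← up_mul h2 c1, ← pow_three, a2, up_one]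
    have b4 : up y0 ^ 3 = 1 := by
      rw [pow_three, ← up_mul h2 c2, ← up_mul h2 c2, ← pow_three, a4, up_one]
    have b5 : up (x0 * y0⁻¹) ^ 2 = -1 := by
      rw [sq, ← up_mul h2 (Commute.mul_right c1 (Commute.inv_right c2)), ← sq, a5]
      ext i j; fin_cases i <;> fin_cases j <;> simp [up, zz]
    generalize up (x0 * y0⁻¹) = M at *
    have b6 : Commute M (up y0) := by
      rw [← b1] at H
      calc _ = M * up y0 * up y0 * up y0⁻¹ := by rw [Matrix.mul_assoc _ _ (up _), b2, Matrix.mul_one]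
        _ = _ := by rw [H, Matrix.mul_assoc, Matrix.mul_assoc, b2, Matrix.mul_one]
    rw [← b1, b6.mul_pow, b4, Matrix.mul_one] at b3
    have b7 : (M ^ 2) ^ 3 = 1 := by rw [← pow_mul, mul_comm, pow_mul, b3, one_pow]
    rw [b5] at b7
    refine h2 ?_
    have := congrFun (congrFun b7 0) 0
    simp [pow_three] at this
    linear_combination -this
  have kC : ∀ a, π a ∈ C → a ^ 3 = 1 → a ∈ Blk σ {2, 3} := fun a b1 b2 => by
    have b3 := zC a b1 b2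
    refine mem_of_up h2 b3 (cube_scalar (scalar_two ?_ ?_ nc) ?_)
    · rw [← up_mul h2 b3, ← up_mul h2 c1, hπ.comm (hc _ (a1 ▸ mA _) _ b1) b2]
    · rw [← up_mul h2 b3, ← up_mul h2 c2, hπ.comm (hc _ (a3 ▸ mA _) _ b1) b2]
    · rw [← up_mul h2 b3, ← up_mul h2 b3, ← pow_three, b2, up_one]
  obtain ⟨x2, a6, a7⟩ := CTR.exists_lift π hπ.pow (n := 3) (by decide)
    (hW (h'.range.le ⟨j2 σ x, rfl⟩)) (by simp [← map_pow, hx])
  obtain ⟨y2, a8, a9⟩ := CTR.exists_lift π hπ.pow (n := 3) (by decide)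
    (hW (h'.range.le ⟨j2 σ y, rfl⟩)) (by simp [← map_pow, hy])
  have c3 := zC _ (a6 ▸ mC _) a7
  have c4 := zC _ (a8 ▸ mC _) a9
  have c5 := kC _ (a6 ▸ mC _) a7
  have c6 := kC _ (a8 ▸ mC _) a9
  have kA : ∀ a, π a ∈ A → a ^ 3 = 1 → a ∈ Blk σ {0, 1} := fun a b1 b2 => by
    have b3 := zA a b1 b2
    refine mem_of_dn h2 b3 (cube_scalar (scalar_two (X := dn x2) (Y := dn y2) ?_ ?_ fun H => ?_) ?_)
    · rw [← dn_mul h2 b3, ← dn_mul h2 c3, hπ.comm (hc _ b1 _ (a6 ▸ mC _)) a7]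
    · rw [← dn_mul h2 b3, ← dn_mul h2 c4, hπ.comm (hc _ b1 _ (a8 ▸ mC _)) a9]
    · rw [← dn_mul h2 c3, ← dn_mul h2 c4] at H
      have := congrArg π (dn_inj (mul_mem c5 c6) (mul_mem c6 c5) H)
      simp only [map_mul, a6, a8] at this
      exact h5 (emb_inj _ (h'.inj (show θ' (j2 σ _) = θ' (j2 σ _) by simpa using this)))
    · rw [← dn_mul h2 b3, ← dn_mul h2 b3, ← pow_three, b2, dn_one]
  have lA : (θ.comp (j1 σ)).range ≤ (Blk σ {0, 1}).map π := by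
    rw [MonoidHom.range_eq_map, map_le_iff_le_comap, top_le_iff]
    exact h6 _ ⟨_, kA _ (a1 ▸ mA _) a2, a1⟩ ⟨_, kA _ (a3 ▸ mA _) a4, a3⟩
  have lC : C ≤ (Blk σ {2, 3}).map π := by
    rw [← h'.right, MonoidHom.range_eq_map, map_le_iff_le_comap, top_le_iff]
    exact h6 _ ⟨_, c5, a6⟩ ⟨_, c6, a8⟩
  obtain ⟨g, hg⟩ := hV (h.range.le ⟨cyc σ, rfl⟩)
  have z2 : π (g * zz σ * g⁻¹) = θ (j2 σ (dg (m1 σ))) := by
    rw [map_mul, map_mul, map_inv, hg, z1, ← map_mul, cyc_j1]; simp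
  have z3 : g * zz σ * g⁻¹ * (g * zz σ * g⁻¹) = 1 := by rw [conj_mul, zz_sq]; simp
  have z4 : ∀ v : Fin 4 → F, (g * zz σ * g⁻¹) • v = v →
      ∀ i ∈ ({0, 1} : Set (Fin 4)), (g⁻¹ • v) i = 0 := fun v hv =>
    zz_fix (σ := σ) h2 (by rw [← mul_smul, eq_inv_smul_iff, ← mul_smul, ← mul_assoc, hv])
  generalize g * zz σ * g⁻¹ = z at z2 z3 z4
  have z5 : ∀ a, π a ∈ A → a ^ 3 = 1 → z⁻¹ * a * z ∈ Blk σ {0, 1} := fun a b1 b2 => kA _ (by
    obtain ⟨s, hs⟩ := h.left.ge b1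
    obtain ⟨t, ht⟩ := range_j1.ge (Blk.conj (j2_dg (m1 σ)) (range_j1.le ⟨s, rfl⟩))
    rw [map_mul, map_mul, map_inv, z2, ← hs, MonoidHom.comp_apply, ← map_inv, ← map_mul,
      ← map_mul, ← ht]
    exact mA _) (by simpa [b2] using conj_pow (i := 3) (a := z⁻¹) (b := a))
  have z6 : zz σ * z = z * zz σ := by
    rw [← inv_mul_eq_iff_eq_mul, ← mul_assoc]
    refine hπ.blk (T := {0, 1}) (k := 2) ?_ (by simp) ?_ zz_mem
    · rw [map_mul, map_mul, map_inv, z1, z2, mul_assoc, inv_mul_eq_iff_eq_mul, ← map_mul, ← map_mul]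
      congr 1
      refine SU.ext ?_
      ext i j; fin_cases i <;> fin_cases j <;>
        simp [SU.mul_val, j1_val, j2_val, dg, mul_apply, Fin.sum_univ_three]
    · rw [← a5, show z⁻¹ * (x0 * y0⁻¹) ^ 2 * z = (z⁻¹ * x0 * z * (z⁻¹ * y0 * z)⁻¹) ^ 2 by
        simp [sq, mul_assoc]]
      exact pow_mem (mul_mem (z5 _ (a1 ▸ mA _) a2) (inv_mem (z5 _ (a3 ▸ mA _) a4))) _
  obtain ⟨u, u1, u2, u3⟩ := invol_fix hσ h2 z3 (T := {0, 1})
    (fun v hv => supp_zz h2 z6 (.inl rfl) hv) fun H => by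
      obtain ⟨b, hb, e1⟩ := lA ⟨wy σ, rfl⟩
      have := congrArg π (comm_of_neg H hb)
      rw [map_mul, map_mul, z2, e1, MonoidHom.comp_apply, ← map_mul, ← map_mul] at this
      exact m1_ne1 h2 (h.inj this)
  obtain ⟨v, v1, v2, v3⟩ := invol_fix hσ h2 z3 (T := {2, 3})
    (fun v hv => supp_zz h2 z6 (.inr rfl) hv) fun H => by
      obtain ⟨b, hb, e1⟩ := lC (mC (wy σ))
      have := congrArg π (comm_of_neg H hb)
      rw [map_mul, map_mul, z2, e1, ← e, ← map_mul, ← map_mul] at this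
      exact m1_ne2 h2 (h'.inj this)
  obtain ⟨k, k1, k2, k3⟩ := fin_conj hσ lA lC hg u1 v1 u2 v2 (z4 _ u3) (z4 _ v3)
  rw [h.left] at k1
  rw [h.right] at k2
  have key : ∀ {θ : SU σ (Fin 3) →* G} {A B V K : Subgroup G}, StdV θ A B V → A ≤ K → B ≤ K →
      V ≤ K := fun h b1 b2 => by
    rw [← h.range, MonoidHom.range_eq_map, map_le_iff_le_comap, top_le_iff]
    refine gen' hσ hF (by decide) ?_ ?_ <;> rintro _ ⟨s, rfl⟩
    exacts [b1 (h.left.le ⟨s, rfl⟩), b2 (h.right.le ⟨s, rfl⟩)]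
  exact ⟨_, fin4 (hπ.conj k) h h' k1 k2 k3
    (key h (k1.trans (map_mono (Blk.mono (by simp [Set.subset_def]))))
      (k2.trans (map_mono (Blk.mono (by simp [Set.subset_def])))))
    (key h' (k2.trans (map_mono (Blk.mono (by simp [Set.subset_def]))))
      (k3.trans (map_mono (Blk.mono (by simp [Set.subset_def])))))⟩

theorem std3 (hF : Nat.card F = 3 ^ 2) {π : SU σ (Fin 4) →* G} {θ θ' : SU σ (Fin 3) →* G}
    {A B C : Subgroup G} (h : Std θ A B) (h' : Std θ' B C)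
    (hc : ∀ x ∈ A, ∀ y ∈ C, x * y = y * x) (hV : θ.range ≤ π.range) (hW : θ'.range ≤ π.range) :
    ∃ χ : SU σ (Fin 4) →* G, StdV (χ.comp (emb σ Fin.castSuccEmb)) A B θ.range ∧
      StdV (χ.comp (emb σ (Fin.succEmb 3))) B C θ'.range := by
  have := char_three hσ hF
  have h3 : (3 : F) = 0 := CharP.cast_eq_zero F 3
  have h2 : (2 : F) ≠ 0 := fun h => one_ne_zero (by linear_combination h3 - h : (1 : F) = 0)
  have inj : ∀ {θ : SU σ (Fin 3) →* G} {A B : Subgroup G}, Std θ A B → StdV θ A B θ.range :=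
    fun h => ⟨(injective_iff_map_eq_one _).2 fun g hg => by
      obtain ⟨r, hr⟩ := center_scalar hσ (h.ker hg)
      have := g.1.2
      rw [hr, det_smul, det_one, mul_one] at this
      exact SU.ext (by
        rw [hr, show r = 1 from frobenius_inj F 3 (by simpa [frobenius_def] using this), one_smul]
        rfl), h.left, h.right, rfl⟩
  obtain ⟨θ'', k1, k2, k3⟩ := loc hσ h h' hc
  rw [← k2] at hW ⊢
  obtain ⟨x, y, hx, hy, hb, h4, h5, h6⟩ := gen_three hσ hF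
  obtain ⟨g₀, hg⟩ := hV ⟨j1 σ (wy σ), rfl⟩
  have hπ : ScK π := scK hσ hF (by simp) (g₀ := g₀) fun H => wy_ne (emb_inj _ ((inj h).inj
    (show θ (j1 σ _) = θ (j1 σ _) by rw [← hg, H, map_one, map_one])))
  obtain ⟨x0, a1, a2⟩ := CTR.exists_lift π hπ.pow (n := 3) (by decide)
    (hV ⟨j1 σ x, rfl⟩) (by simp [← map_pow, hx])
  obtain ⟨y0, a3, a4⟩ := CTR.exists_lift π hπ.pow (n := 3) (by decide)
    (hV ⟨j1 σ y, rfl⟩) (by simp [← map_pow, hy])
  have b1 : x0 * y0 * x0 = y0 * x0 * y0 := by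
    rw [mul_assoc y0, ← mul_inv_eq_iff_eq_mul]
    refine hπ.uniq ?_ (by rw [conj_pow, a2]; simp) a4
    rw [map_mul, map_inv, mul_inv_eq_iff_eq_mul]
    simp only [map_mul, a1, a3]
    simp only [← map_mul, ← mul_assoc, hb]
  obtain ⟨k, hk⟩ := conj_zz hσ h2 (braid_sq a2 b1) fun H => by
    obtain ⟨g, hg⟩ := hV ⟨j2 σ (wy σ), rfl⟩
    have := congrArg π (H g)
    simp only [map_mul, map_pow, map_inv, a1, a3, hg] at this
    simp only [← map_mul, ← map_pow, ← map_inv, h4] at this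
    exact m1_ne2 h2 ((inj h).inj this)
  have hr : (π.comp (MulAut.conj k⁻¹).toMonoidHom).range = π.range :=
    range_comp_eq _ (MulAut.conj k⁻¹).surjective
  refine std3_aux hσ hF (hπ.conj k⁻¹) (inj h) (inj k1) k3 hc (hr ▸ hV) (hr ▸ hW) hx hy h4 h5 h6
    (x0 := k * x0 * k⁻¹) (y0 := k * y0 * k⁻¹) (by simp [mul_assoc, a1])
    (by rw [conj_pow, a2]; simp) (by simp [mul_assoc, a3]) (by rw [conj_pow, a4]; simp) ?_
  rw [← hk]; simp [sq, mul_assoc]

end Cfsg.Agent.Phan
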